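import Cfsg.Agent.H156.Ppd.DMain

/-!
# Type `D_l`: modules which are not natural are large (helper947, S3499, task 6139)

* **`dBig`** : `l = n + 2 ≥ 5`, `dim V^U = 1`: natural, or `dim V (dim V - 1)` is large, or `l = 5` and the support is
  one half-spin node (and perhaps the first node).
* **`dBigFour`** : `l = 4`: `dim V ≤ 8` or large.
-/

set_option autoImplicit false
set_option linter.unusedSectionVars false
set_option linter.style.longLine false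

namespace Cfsg.Agent.H947.EPO

open CoxeterSystem Cfsg.Agent.ChevalleyStructure.CoxeterGeom Cfsg.Agent.Tits.Roots Cfsg.Agent.Tits.Core
  Cfsg.Agent.Tits.Exchange Cfsg.Agent.Nodes.Reps Cfsg.Agent.Nodes.BNOf Cfsg.Agent.Nodes.StabComb
  Cfsg.Agent.Nodes.Bruhat Cfsg.Agent.Nodes.OppDec Cfsg.Agent.Nodes.LeviDec Cfsg.Agent.KFacts.RgdOpp
  Cfsg.Agent.Omega.CR Cfsg.Agent.Omega.FOne.Lift.Sd Cfsg.Agent.H905.Md Cfsg.Agent.H905.DC Cfsg.Agent.Nodes.TypeD
  Cfsg.Agent.Nodes.RGDLib Cfsg.Agent.H650.Ppd Cfsg.Agent.H156.Ppd Cfsg.Agent.H156.Ppd.DSg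

/-- the numerical condition: `l` rank, `e` the exponent, `N` the dimension -/
def Big (l e N : ℕ) : Prop := 2 * (e * (2 * l ^ 2 - l + 5) + 4) ≤ N * (N - 1)

/-- the exponents -/
def Exp (l e : ℕ) : Prop := e ≤ 5 ∨ 7 ≤ l ∧ e ≤ l

theorem big_of {n e N a : ℕ} (ha : a = (n + 2) * (n + 1))
    (h : 2 * (e * (2 * a + (n + 7)) + 4) ≤ N * (N - 1)) : Big (n + 2) e N := by
  unfold Big
  have h1 : 2 * (n + 2) ^ 2 - (n + 2) + 5 = 2 * a + (n + 7) := by
    have h2 : 2 * (n + 2) ^ 2 = 2 * a + 2 * (n + 2) := by rw [ha]; ring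
    omega
  rw [h1]
  exact h

theorem Big.mono {l e N N' : ℕ} (h : Big l e N) (hN : N ≤ N') : Big l e N' :=
  le_trans h (Nat.mul_le_mul hN (Nat.sub_le_sub_right hN 1))

/-- the middle nodes -/
theorem big_mid {n e N a : ℕ} (hn : 3 ≤ n) (ha : a = (n + 2) * (n + 1)) (he : Exp (n + 2) e)
    (hN : 2 * a ≤ N) : Big (n + 2) e N := by
  refine Big.mono (N := 2 * a) ?_ hN
  apply big_of ha
  have ha20 : 20 ≤ a := by rw [ha]; nlinarith
  have hna : 4 * (n + 2) ≤ a := by rw [ha]; nlinarith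
  obtain ⟨b, hb⟩ : ∃ b, 2 * a = b + 1 := ⟨2 * a - 1, by omega⟩
  rw [hb, Nat.add_sub_cancel]
  rcases he with he | ⟨h7, he⟩
  · have h1 : e * (2 * a + (n + 7)) ≤ 5 * (2 * a + (n + 7)) := Nat.mul_le_mul_right _ he
    nlinarith
  · have h5 : 5 ≤ n := by omega
    have hna6 : 6 * (n + 2) ≤ a := by rw [ha]; nlinarith
    have h1 : e * (2 * a + (n + 7)) ≤ (n + 2) * (2 * a + (n + 7)) := Nat.mul_le_mul_right _ he
    have h2 : 6 * ((n + 2) * (2 * a + (n + 7))) ≤ a * (2 * a + (n + 7)) := by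
      calc 6 * ((n + 2) * (2 * a + (n + 7))) = (6 * (n + 2)) * (2 * a + (n + 7)) := by ring
        _ ≤ _ := Nat.mul_le_mul_right _ hna6
    have h3 : a * (2 * a + (n + 7)) ≤ a * (3 * a) := Nat.mul_le_mul_left _ (by omega)
    have h4 : a * (3 * a) = 3 * (a * a) := by ring
    have h6 : (b + 1) * b + (b + 1) = 4 * (a * a) := by
      have : (b + 1) * b + (b + 1) = (b + 1) * (b + 1) := by ring
      rw [this, ← hb]; ring
    have h7' : 20 * a ≤ a * a := Nat.mul_le_mul_right _ ha20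
    have h8 : 6 * (e * (2 * a + (n + 7))) ≤ 3 * (a * a) := by
      calc 6 * (e * (2 * a + (n + 7))) ≤ 6 * ((n + 2) * (2 * a + (n + 7))) := Nat.mul_le_mul_left _ h1
        _ ≤ _ := h2.trans (h3.trans h4.le)
    rw [hb] at h8
    have h9 : (b + 1) * b = 4 * (a * a) - (b + 1) := by omega
    rw [h9]
    omega

theorem two_pow_ge (n : ℕ) (hn : 5 ≤ n) : (n + 2) * (n + 1) + 22 ≤ 2 ^ (n + 1) := by
  induction n, hn using Nat.le_induction with
  | base => norm_num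
  | succ n hn ih =>
    rw [pow_succ]
    nlinarith

/-- the half-spin nodes, `l ≥ 6` -/
theorem big_half {n e N : ℕ} (hn : 4 ≤ n) (he : Exp (n + 2) e) (hN : 2 ^ (n + 1) ≤ N) : Big (n + 2) e N := by
  refine Big.mono (N := 2 ^ (n + 1)) ?_ hN
  rcases Nat.lt_or_ge 4 n with hn5 | hn4
  · obtain ⟨a, ha⟩ : ∃ a, a = (n + 2) * (n + 1) := ⟨_, rfl⟩
    have hp := two_pow_ge n hn5
    rw [← ha] at hp
    refine Big.mono (N := a + 22) ?_ hp
    apply big_of ha
    have hna6 : 6 * (n + 2) ≤ a := by rw [ha]; nlinarith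
    have hsq : (n + 2) * (n + 2) = a + (n + 2) := by rw [ha]; ring
    have e1 : (a + 22) * (a + 22 - 1) = a * a + 43 * a + 462 := by
      have : a + 22 - 1 = a + 21 := by omega
      rw [this]; ring
    rw [e1]
    have ha42 : 42 ≤ a := by rw [ha]; nlinarith
    rcases he with he | ⟨h7, he⟩
    · have h1 : e * (2 * a + (n + 7)) ≤ 5 * (2 * a + (n + 7)) := Nat.mul_le_mul_right _ he
      nlinarith
    · have h1 : e * (2 * a + (n + 7)) ≤ (n + 2) * (2 * a + (n + 7)) := Nat.mul_le_mul_right _ he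
      have h2 : (n + 2) * (2 * a + (n + 7)) = 2 * ((n + 2) * a) + (n + 2) * (n + 2) + 5 * (n + 2) := by ring
      have h3 : 6 * ((n + 2) * a) ≤ a * a := by
        calc 6 * ((n + 2) * a) = (6 * (n + 2)) * a := by ring
          _ ≤ _ := Nat.mul_le_mul_right _ hna6
      have h4 : 42 * a ≤ a * a := Nat.mul_le_mul_right _ ha42
      omega
  · obtain rfl : n = 4 := by omega
    unfold Big
    have he5 : e ≤ 5 := by
      rcases he with he | ⟨h7, he⟩
      · exact he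
      · omega
    norm_num
    omega

/-- Cartan matrix of type `D₅` -/
def mAD5 : Fin 5 → Fin 5 → ℤ := ![![2, -1, 0, 0, 0], ![-1, 2, -1, 0, 0], ![0, -1, 2, -1, -1], ![0, 0, -1, 2, 0], ![0, 0, -1, 0, 2]]

theorem mAD5_eq : (Nodes.TypeD.A 3) = mAD5 := by
  funext i j
  rw [Nodes.TypeD.A_apply]
  revert i j
  decide +kernel

section D5

variable {W Y : Type*} [Group W] [Group Y] {cs : CoxeterSystem (Nodes.TypeD.M 3) W} {p : ℕ} {T : Subgroup Y} {n : Fin 5 → Y}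
  {X : (Fin 5 → ℤ) → Subgroup Y} {k V : Type*} [Field k] [AddCommGroup V] [Module k V]
  {A : Fin 5 → Fin 5 → ℤ} {h : IsCartan (Nodes.TypeD.M 3) A} (hA : A = mAD5)
  (R : RGD cs h p T n X) [Finite Y] [Finite W] [Fact p.Prime] [CharP k p]
  {ρ : Y →* Module.End k V} [FiniteDimensional k V] [Nontrivial V]
  (hirr : ∀ L : Submodule k V, Ivt ρ (GG cs h T X) L → L = ⊥ ∨ L = ⊤)
include hA R hirr

theorem dFive_two (hi : (3 : Fin 5) ∉ Jx cs h X ρ) (hj : (4 : Fin 5) ∉ Jx cs h X ρ) :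
    24 * Module.finrank k (D cs h X ρ) ≤ Module.finrank k V := by
  subst hA
  exact (Nat.le_add_right _ _).trans (dim_ge_list_two R hirr hi hj (by decide)
    [[], [3], [4], [3, 2], [3, 4], [4, 2], [3, 2, 1], [3, 2, 4], [3, 4, 2], [4, 2, 1], [4, 2, 3], [3, 2, 1, 0], [3, 2, 1, 4], [3, 2, 4, 2], [3, 4, 2, 1], [3, 4, 2, 3], [4, 2, 1, 0], [4, 2, 1, 3], [3, 2, 1, 0, 4], [3, 2, 1, 4, 2], [3, 2, 4, 2, 1], [3, 2, 4, 2, 3], [3, 4, 2, 1, 0], [3, 4, 2, 1, 3]]
    [] [] (by decide +kernel) (by simp) (by simp))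

end D5

section bounds

variable {n : ℕ} {W Y : Type*} [Group W] [Group Y] {cs : CoxeterSystem (Nodes.TypeD.M n) W} {p : ℕ} {T : Subgroup Y}
  {m : Fin (n + 2) → Y} {X : (Fin (n + 2) → ℤ) → Subgroup Y} {k V : Type*} [Field k] [AddCommGroup V] [Module k V]
  (R : RGD cs (isCartan n) p T m X) [Finite Y] [Finite W] [Fact p.Prime] [CharP k p]
  {ρ : Y →* Module.End k V} [FiniteDimensional k V] [Nontrivial V]
  (hirr : ∀ L : Submodule k V, Ivt ρ (GG cs (isCartan n) T X) L → L = ⊥ ∨ L = ⊤)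
include R hirr

/-- **Type `D_l`, `l ≥ 5`.** -/
theorem dBig (hn : 3 ≤ n) (hG : G1 cs (isCartan n) X = ⊤) (hnt : ∃ (g : Y) (v : V), ρ g v ≠ v)
    (hD : Module.finrank k (D cs (isCartan n) X ρ) = 1) {e : ℕ} (he : Exp (n + 2) e) :
    ((∀ i, i ∈ Jx cs (isCartan n) X ρ ↔ i ≠ 0) ∧ Module.finrank k (Le cs (isCartan n) T X ρ {0}) ≤ 2) ∨
    Big (n + 2) e (Module.finrank k V) ∨
    (n = 3 ∧ 16 ≤ Module.finrank k V ∧ ∃ i i' : Fin (n + 2), n ≤ (i : ℕ) ∧ n ≤ (i' : ℕ) ∧ i ≠ i' ∧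
      i ∉ Jx cs (isCartan n) X ρ ∧ i' ∈ Jx cs (isCartan n) X ρ) := by
  have hC := two_mul_choose n
  obtain ⟨i0, hi0⟩ : ∃ i, i ∉ Jx cs (isCartan n) X ρ := by
    by_contra hcon
    push Not at hcon
    obtain ⟨g, v, hv⟩ := hnt
    exact hv (H925.Nat.triv_of_Jx_univ R hirr hG hcon g v)
  by_cases hmid : ∃ i : Fin (n + 2), i ∉ Jx cs (isCartan n) X ρ ∧ 1 ≤ (i : ℕ) ∧ (i : ℕ) < n
  · obtain ⟨i, hi, h1, h2⟩ := hmid
    right; left
    have h3 := dim_V R hirr hi h1 h2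
    have h4 := choose_two_le (m := n + 2) (k := (i : ℕ) + 1) (by omega) (by omega)
    rw [hD, mul_one, hC] at h3
    refine big_mid hn rfl he (le_trans ?_ h3)
    have h5 : 2 * ((n + 2) * (n + 1)) ≤ (n + 2).choose ((i : ℕ) + 1) * 4 := by
      rw [← hC]
      omega
    omega
  by_cases hhalf : ∃ i : Fin (n + 2), i ∉ Jx cs (isCartan n) X ρ ∧ n ≤ (i : ℕ)
  · obtain ⟨i, hi, h2⟩ := hhalf
    have h3 := dim_H R hirr (by omega) hi h2
    rw [hD, mul_one, hC] at h3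
    rcases Nat.lt_or_ge 3 n with hn4 | hn3
    · right; left
      exact big_half hn4 he (le_trans (Nat.le_add_right _ _) h3)
    · obtain rfl : n = 3 := by omega
      have he5 : e ≤ 5 := by
        rcases he with he | ⟨h7, he⟩
        · exact he
        · omega
      by_cases hboth : (3 : Fin 5) ∉ Jx cs (isCartan 3) X ρ ∧ (4 : Fin 5) ∉ Jx cs (isCartan 3) X ρ
      · right; left
        have h4 := dFive_two mAD5_eq R hirr hboth.1 hboth.2
        rw [hD, mul_one] at h4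
        refine Big.mono (N := 24) ?_ h4
        unfold Big
        norm_num
        omega
      · right; right
        refine ⟨rfl, by omega, ?_⟩
        have hi' : i = (3 : Fin 5) ∨ i = (4 : Fin 5) := by
          have := i.2
          rcases (show (i : ℕ) = 3 ∨ (i : ℕ) = 4 by omega) with h5 | h5
          · left; exact Fin.ext h5
          · right; exact Fin.ext h5
        rcases hi' with rfl | rfl
        · refine ⟨(3 : Fin 5), (4 : Fin 5), by decide, by decide, by decide, hi, ?_⟩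
          by_contra h6
          exact hboth ⟨hi, h6⟩
        · refine ⟨(4 : Fin 5), (3 : Fin 5), by decide, by decide, by decide, hi, ?_⟩
          by_contra h6
          exact hboth ⟨h6, hi⟩
  · have hall : ∀ i, i ∉ Jx cs (isCartan n) X ρ → i = 0 := by
      intro i hi
      apply Fin.ext
      by_contra h1
      have h2 : (i : ℕ) ≠ 0 := h1
      rcases Nat.lt_or_ge (i : ℕ) n with h3 | h3
      · exact hmid ⟨i, hi, by omega, h3⟩
      · exact hhalf ⟨i, hi, h3⟩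
    have h00 := hall i0 hi0
    subst h00
    have h3 := dim_O R hirr (by omega) hi0
    rw [hD, mul_one, show (n + 2).choose 2 * 4 = 2 * ((n + 2).choose 2 * 2) by ring, hC] at h3
    rcases Nat.eq_zero_or_pos (Module.finrank k (Io cs (isCartan n) T X ρ 0)) with hc | hc
    · left
      refine ⟨fun i => ⟨fun h1 h2 => hi0 (h2 ▸ h1), fun h1 => ?_⟩, ?_⟩
      · by_contra h2
        exact h1 (hall i h2)
      · have h1 := finrank_Io R hirr (ρ := ρ) (0 : Fin (n + 2))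
        rw [hc, hD] at h1
        omega
    · right; left
      refine big_mid hn rfl he (le_trans ?_ h3)
      nlinarith

end bounds

section D4

variable {W Y : Type*} [Group W] [Group Y] {cs : CoxeterSystem (Nodes.TypeD.M 2) W} {p : ℕ} {T : Subgroup Y} {n : Fin 4 → Y}
  {X : (Fin 4 → ℤ) → Subgroup Y} {k V : Type*} [Field k] [AddCommGroup V] [Module k V]
  {A : Fin 4 → Fin 4 → ℤ} {h : IsCartan (Nodes.TypeD.M 2) A} (hA : A = mAD4)
  (R : RGD cs h p T n X) [Finite Y] [Finite W] [Fact p.Prime] [CharP k p]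
  {ρ : Y →* Module.End k V} [FiniteDimensional k V] [Nontrivial V]
  (hirr : ∀ L : Submodule k V, Ivt ρ (GG cs h T X) L → L = ⊥ ∨ L = ⊤)
include hA R hirr

theorem dFour_two' {i j : Fin 4} (hi : i ∉ Jx cs h X ρ) (hj : j ∉ Jx cs h X ρ)
    (hi1 : i ≠ 1) (hj1 : j ≠ 1) (hij : i < j) :
    24 * Module.finrank k (D cs h X ρ) ≤ Module.finrank k V := by
  subst hA
  have key : ∀ L : List (List (Fin 4)), (L.map fun ω => (cf mAD4 i ω, cf mAD4 j ω)).Nodup →
      L.length * Module.finrank k (D cs h X ρ) ≤ Module.finrank k V := fun L hL =>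
    (Nat.le_add_right _ _).trans (dim_ge_list_two R hirr hi hj hij.ne L [] [] hL (by simp) (by simp))
  have h1 : (i = 0 ∧ j = 2) ∨ (i = 0 ∧ j = 3) ∨ (i = 2 ∧ j = 3) := by omega
  rcases h1 with ⟨rfl, rfl⟩ | ⟨rfl, rfl⟩ | ⟨rfl, rfl⟩
  · exact key [[], [0], [2], [0, 1], [0, 2], [2, 1], [0, 1, 2], [0, 1, 3], [0, 2, 1], [2, 1, 0], [2, 1, 3], [0, 1, 2, 1], [0, 1, 2, 3], [0, 2, 1, 0], [0, 2, 1, 3], [2, 1, 0, 3], [0, 1, 2, 1, 0], [0, 1, 2, 1, 3], [0, 1, 2, 3, 1], [0, 2, 1, 0, 3], [2, 1, 0, 3, 1], [0, 1, 2, 1, 0, 3], [0, 1, 2, 1, 3, 1], [0, 1, 2, 3, 1, 0]]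
      (by decide +kernel)
  · exact key [[], [0], [3], [0, 1], [0, 3], [3, 1], [0, 1, 2], [0, 1, 3], [0, 3, 1], [3, 1, 0], [3, 1, 2], [0, 1, 2, 3], [0, 1, 3, 1], [0, 3, 1, 0], [0, 3, 1, 2], [3, 1, 0, 2], [0, 1, 2, 3, 1], [0, 1, 3, 1, 0], [0, 1, 3, 1, 2], [0, 3, 1, 0, 2], [3, 1, 0, 2, 1], [0, 1, 2, 3, 1, 0], [0, 1, 2, 3, 1, 2], [0, 1, 3, 1, 0, 2]]
      (by decide +kernel)
  · exact key [[], [2], [3], [2, 1], [2, 3], [3, 1], [2, 1, 0], [2, 1, 3], [2, 3, 1], [3, 1, 0], [3, 1, 2], [2, 1, 0, 3], [2, 1, 3, 1], [2, 3, 1, 0], [2, 3, 1, 2], [3, 1, 0, 2], [2, 1, 0, 3, 1], [2, 1, 3, 1, 0], [2, 1, 3, 1, 2], [2, 3, 1, 0, 2], [3, 1, 0, 2, 1], [2, 1, 0, 3, 1, 0], [2, 1, 0, 3, 1, 2], [2, 1, 3, 1, 0, 2]]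
      (by decide +kernel)

/-- **Type `D₄`.** -/
theorem dBigFour (hG : G1 cs h X = ⊤) (hnt : ∃ (g : Y) (v : V), ρ g v ≠ v)
    (hD : Module.finrank k (D cs h X ρ) = 1) :
    Module.finrank k V ≤ 8 ∨ 24 ≤ Module.finrank k V := by
  obtain ⟨i, hi⟩ : ∃ i, i ∉ Jx cs h X ρ := by
    by_contra hcon
    push Not at hcon
    obtain ⟨g, v, hv⟩ := hnt
    exact hv (H925.Nat.triv_of_Jx_univ R hirr hG hcon g v)
  by_contra hcon
  push Not at hcon
  obtain ⟨hc1, hc2⟩ := hcon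
  have key : ∀ i, i ∉ Jx cs h X ρ → i ≠ 1 ∧ Module.finrank k (Io cs h T X ρ i) = 0 := by
    intro i hi
    rcases dFour_one hA R hirr hi with ⟨-, h2⟩ | ⟨h3, h2⟩
    · rw [hD] at h2
      omega
    · rw [hD] at h2
      exact ⟨h3, by omega⟩
  have hJ : ∀ j, j ∉ Jx cs h X ρ → j = i := by
    intro i' hi'
    by_contra hne
    obtain ⟨h1, -⟩ := key i hi
    obtain ⟨h3, -⟩ := key i' hi'
    rcases lt_or_gt_of_ne hne with h4 | h4
    · have := dFour_two' hA R hirr hi' hi h3 h1 h4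
      omega
    · have := dFour_two' hA R hirr hi hi' h1 h3 h4
      omega
  obtain ⟨h1, h3⟩ := key i hi
  have h4 := finrank_Io R hirr (ρ := ρ) i
  have h5 := dFour_le hA R hirr hi hJ h1 (by omega)
  omega

end D4

theorem big_four {e N : ℕ} (he : Exp 4 e) (hN : 24 ≤ N) : Big 4 e N := by
  refine Big.mono (N := 24) ?_ hN
  have he5 : e ≤ 5 := by
    rcases he with he | ⟨h7, he⟩
    · exact he
    · omega
  unfold Big
  norm_num
  omega

end Cfsg.Agent.H947.EPO
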